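import Mathlib
import Cfsg.Agent.Omega.Lie.HeisCover

/-!
# Complex representations of a Heisenberg configuration `5^{1+4}` with `z ~ z²` (helper793, S3507, row `HN`)

`le_finrank` : if `Heis 5 2 z x y`, `w z w⁻¹ = z²` and `ρ z ≠ 1`, then `100 ≤ dim ρ`.
-/

set_option autoImplicit false

namespace Cfsg.Agent.H793.Cyc.HeisC

open Cfsg.Agent.Omega.Lie.Heis Module

variable {E : Type*} [Group E] {V : Type*} [AddCommGroup V] [Module ℂ V]

/-- a common eigenvector -/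
def JE (ρ : Representation ℂ E V) (z x₁ x₂ : E) (μ α β : ℂ) : Prop :=
  ∃ v : V, v ≠ 0 ∧ ρ z v = μ • v ∧ ρ x₁ v = α • v ∧ ρ x₂ v = β • v

theorem exists_eig {W : Submodule ℂ V} [FiniteDimensional ℂ V] (hW : W ≠ ⊥) (T : V →ₗ[ℂ] V) (hT : ∀ v ∈ W, T v ∈ W) :
    ∃ v ∈ W, v ≠ 0 ∧ ∃ μ : ℂ, T v = μ • v := by
  have : Nontrivial W := Submodule.nontrivial_iff_ne_bot.2 hW
  obtain ⟨μ, hμ⟩ := Module.End.exists_eigenvalue (T.restrict hT)
  obtain ⟨v, hv⟩ := hμ.exists_hasEigenvector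
  refine ⟨v, v.2, fun h => hv.2 (Subtype.ext h), μ, ?_⟩
  have h1 := congrArg Subtype.val hv.apply_eq_smul
  exact h1

theorem mul_apply (ρ : Representation ℂ E V) (g h : E) (v : V) : ρ (g * h) v = ρ g (ρ h v) := by
  rw [map_mul]; rfl

theorem pow_apply (ρ : Representation ℂ E V) {g : E} {v : V} {μ : ℂ} (h : ρ g v = μ • v) (n : ℕ) :
    ρ (g ^ n) v = μ ^ n • v := by
  induction n with
  | zero => rw [pow_zero, pow_zero, map_one, one_smul]; rfl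
  | succ n ih => rw [pow_succ, mul_apply, h, map_smul, ih, smul_smul, pow_succ, mul_comm]

theorem eig_pow (ρ : Representation ℂ E V) {g : E} {v : V} {μ : ℂ} (hv : v ≠ 0) (h : ρ g v = μ • v) {n : ℕ}
    (hn : g ^ n = 1) : μ ^ n = 1 := by
  have h1 := pow_apply ρ h n
  rw [hn, map_one] at h1
  have h2 : (μ ^ n - 1) • v = 0 := by
    rw [sub_smul, one_smul, ← h1]
    exact sub_self v
  rcases smul_eq_zero.1 h2 with h3 | h3
  · exact sub_eq_zero.1 h3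
  · exact absurd h3 hv

theorem exists_z [FiniteDimensional ℂ V] (ρ : Representation ℂ E V) {z : E} (hz : z ^ 5 = 1) (h1 : ρ z ≠ 1) :
    ∃ v : V, v ≠ 0 ∧ ∃ μ : ℂ, μ ≠ 1 ∧ ρ z v = μ • v := by
  let N : V →ₗ[ℂ] V := 1 + ρ z + ρ z ^ 2 + ρ z ^ 3 + ρ z ^ 4
  have hcomm : N * (ρ z - 1) = 0 := by
    have h5 : ρ z ^ 5 = 1 := by rw [← map_pow, hz, map_one]
    have h2 : N * (ρ z - 1) = ρ z ^ 5 - 1 := by
      simp only [N]
      noncomm_ring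
    rw [h2, h5, sub_self]
  have hcomm' : N * ρ z = ρ z * N := by
    simp only [N]
    noncomm_ring
  have hW : LinearMap.ker N ≠ ⊥ := by
    intro h
    apply h1
    ext v
    have h2 : (ρ z - 1) v ∈ LinearMap.ker N := by
      rw [LinearMap.mem_ker]
      exact congrArg (fun f : V →ₗ[ℂ] V => f v) hcomm
    rw [h, Submodule.mem_bot] at h2
    exact sub_eq_zero.1 h2
  obtain ⟨v, hv, hv0, μ, hμ⟩ := exists_eig hW (ρ z) (fun v hv => by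
    rw [LinearMap.mem_ker] at hv ⊢
    have h2 := congrArg (fun f : V →ₗ[ℂ] V => f v) hcomm'
    have h3 : N (ρ z v) = ρ z (N v) := h2
    rw [h3, hv, map_zero])
  refine ⟨v, hv0, μ, ?_, hμ⟩
  rintro rfl
  rw [one_smul] at hμ
  rw [LinearMap.mem_ker] at hv
  have h2 : N v = v + ρ z v + ρ z (ρ z v) + ρ z (ρ z (ρ z v)) + ρ z (ρ z (ρ z (ρ z v))) := rfl
  rw [h2] at hv
  simp only [hμ] at hv
  have h3 : (5 : ℂ) • v = 0 := by
    rw [← hv]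
    module
  rcases smul_eq_zero.1 h3 with h4 | h4
  · norm_num at h4
  · exact hv0 h4

/-- extension of an eigenvector of `z` to a common eigenvector -/
theorem exists_je [FiniteDimensional ℂ V] (ρ : Representation ℂ E V) {z x₁ x₂ : E} (h1 : z * x₁ = x₁ * z)
    (h2 : z * x₂ = x₂ * z) (h12 : x₁ * x₂ = x₂ * x₁) {v : V} (hv : v ≠ 0) {μ : ℂ} (hμ : ρ z v = μ • v) :
    ∃ α β, JE ρ z x₁ x₂ μ α β := by
  let W₁ : Submodule ℂ V := LinearMap.ker (ρ z - μ • 1)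
  have m1 : ∀ u : V, u ∈ W₁ ↔ ρ z u = μ • u := by
    intro u
    rw [LinearMap.mem_ker, LinearMap.sub_apply, sub_eq_zero]
    rfl
  obtain ⟨v₁, hv₁, hv₁0, α, hα⟩ := exists_eig (W := W₁) (fun h => hv (by
    have h3 := (m1 v).2 hμ
    rwa [h, Submodule.mem_bot] at h3)) (ρ x₁) (fun u hu => by
    rw [m1] at hu ⊢
    rw [← mul_apply, h1, mul_apply, hu, map_smul])
  let W₂ : Submodule ℂ V := W₁ ⊓ LinearMap.ker (ρ x₁ - α • 1)
  have m2 : ∀ u : V, u ∈ W₂ ↔ ρ z u = μ • u ∧ ρ x₁ u = α • u := by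
    intro u
    rw [Submodule.mem_inf, m1, LinearMap.mem_ker, LinearMap.sub_apply, sub_eq_zero]
    rfl
  obtain ⟨v₂, hv₂, hv₂0, β, hβ⟩ := exists_eig (W := W₂) (fun h => hv₁0 (by
    have h3 := (m2 v₁).2 ⟨(m1 _).1 hv₁, hα⟩
    rwa [h, Submodule.mem_bot] at h3)) (ρ x₂) (fun u hu => by
    rw [m2] at hu ⊢
    refine ⟨?_, ?_⟩
    · rw [← mul_apply, h2, mul_apply, hu.1, map_smul]
    · rw [← mul_apply, h12, mul_apply, hu.2, map_smul])
  rw [m2] at hv₂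
  exact ⟨α, β, v₂, hv₂0, hv₂.1, hv₂.2, hβ⟩

theorem ap_ne (ρ : Representation ℂ E V) (g : E) {v : V} (hv : v ≠ 0) : ρ g v ≠ 0 := by
  intro h
  apply hv
  have h1 : ρ g⁻¹ (ρ g v) = v := by rw [← mul_apply, inv_mul_cancel, map_one]; rfl
  rw [← h1, h, map_zero]

/-- `y₁ x₁ y₁⁻¹ = x₁ z` shifts the eigenvalue of `x₁` -/
theorem JE.shift₁ {ρ : Representation ℂ E V} {z x₁ x₂ : E} {μ α β : ℂ} (h : JE ρ z x₁ x₂ μ (α * μ) β) {y : E}
    (hz : z * y = y * z) (hc : y * x₁ * y⁻¹ = x₁ * z) (h2 : y * x₂ = x₂ * y) (hμ : μ ≠ 0) : JE ρ z x₁ x₂ μ α β := by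
  obtain ⟨v, hv, h3, h4, h5⟩ := h
  refine ⟨ρ y v, ap_ne ρ y hv, ?_, ?_, ?_⟩
  · rw [← mul_apply, hz, mul_apply, h3, map_smul]
  · have h6 : ρ (x₁ * z * y) v = ρ (y * x₁) v := by rw [← hc, inv_mul_cancel_right]
    rw [mul_assoc, hz, mul_apply, mul_apply, h3, map_smul, map_smul, mul_apply, h4, map_smul] at h6
    apply smul_right_injective V hμ
    show μ • ρ x₁ (ρ y v) = μ • α • ρ y v
    rw [h6, smul_smul, mul_comm]
  · rw [← mul_apply, ← h2, mul_apply, h5, map_smul]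

theorem JE.shift₂ {ρ : Representation ℂ E V} {z x₁ x₂ : E} {μ α β : ℂ} (h : JE ρ z x₁ x₂ μ α (β * μ)) {y : E}
    (hz : z * y = y * z) (hc : y * x₂ * y⁻¹ = x₂ * z) (h2 : y * x₁ = x₁ * y) (hμ : μ ≠ 0) : JE ρ z x₁ x₂ μ α β := by
  obtain ⟨v, hv, h3, h4, h5⟩ := h
  obtain ⟨v', hv', h3', h4', h5'⟩ := JE.shift₁ (x₁ := x₂) (x₂ := x₁) ⟨v, hv, h3, h5, h4⟩ hz hc h2 hμ
  exact ⟨v', hv', h3', h5', h4'⟩

theorem shift_all₁ {ρ : Representation ℂ E V} {z x₁ x₂ : E} {μ α β : ℂ} (h5 : μ ^ 5 = 1) (h : JE ρ z x₁ x₂ μ α β) {y : E}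
    (hz : z * y = y * z) (hc : y * x₁ * y⁻¹ = x₁ * z) (h2 : y * x₂ = x₂ * y) (hμ : μ ≠ 0) (i : ℕ) :
    JE ρ z x₁ x₂ μ (α * μ ^ i) β := by
  have step : ∀ j : ℕ, JE ρ z x₁ x₂ μ (α * μ ^ (4 * j)) β := by
    intro j
    induction j with
    | zero => simpa using h
    | succ j ih =>
      refine JE.shift₁ (y := y) ?_ hz hc h2 hμ
      have : α * μ ^ (4 * (j + 1)) * μ = α * μ ^ (4 * j) * μ ^ 5 := by ring
      rw [this, h5, mul_one]
      exact ih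
  have h3 := step (4 * i)
  have : α * μ ^ (4 * (4 * i)) = α * μ ^ i := by
    have : μ ^ (4 * (4 * i)) = μ ^ i * (μ ^ 5) ^ (3 * i) := by rw [← pow_mul, ← pow_add]; congr 1; ring
    rw [this, h5, one_pow, mul_one]
  rwa [this] at h3

theorem shift_all₂ {ρ : Representation ℂ E V} {z x₁ x₂ : E} {μ α β : ℂ} (h5 : μ ^ 5 = 1) (h : JE ρ z x₁ x₂ μ α β) {y : E}
    (hz : z * y = y * z) (hc : y * x₂ * y⁻¹ = x₂ * z) (h2 : y * x₁ = x₁ * y) (hμ : μ ≠ 0) (i : ℕ) :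
    JE ρ z x₁ x₂ μ α (β * μ ^ i) := by
  obtain ⟨v, hv, h3, h4, h5'⟩ := h
  obtain ⟨v', hv', h3', h4', h5''⟩ := shift_all₁ (x₁ := x₂) (x₂ := x₁) h5 ⟨v, hv, h3, h5', h4⟩ hz hc h2 hμ i
  exact ⟨v', hv', h3', h5'', h4'⟩

/-- `w z w⁻¹ = z²` -/
theorem eig_cube (ρ : Representation ℂ E V) {z w : E} (hz : z ^ 5 = 1) (hw : w * z * w⁻¹ = z ^ 2) {v : V} (hv : v ≠ 0)
    {μ : ℂ} (h : ρ z v = μ • v) : ∃ v' : V, v' ≠ 0 ∧ ρ z v' = μ ^ 3 • v' := by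
  refine ⟨ρ w v, ap_ne ρ w hv, ?_⟩
  have h1 : ρ (z ^ 2) (ρ w v) = μ • ρ w v := by
    rw [← mul_apply, ← hw, inv_mul_cancel_right, mul_apply, h, map_smul]
  have h2 := pow_apply ρ h1 3
  have h3 : (z ^ 2) ^ 3 = z := by
    rw [← pow_mul]
    have : z ^ (2 * 3) = z ^ 5 * z := by rw [← pow_succ]
    rw [this, hz, one_mul]
  rwa [h3] at h2

theorem pow_inj5 {μ : ℂ} (h5 : μ ^ 5 = 1) (h1 : μ ≠ 1) {i j : ℕ} (hi : i < 5) (hj : j < 5) (h : μ ^ i = μ ^ j) : i = j := by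
  have : Fact (Nat.Prime 5) := ⟨by norm_num⟩
  have ho : orderOf μ = 5 := orderOf_eq_prime h5 h1
  exact pow_injOn_Iio_orderOf (by rw [ho]; exact hi) (by rw [ho]; exact hj) h

/-- independence of common eigenvectors -/
theorem card_le_finrank [FiniteDimensional ℂ V] {ι : Type*} [Fintype ι] {n : ℕ} (f : Fin n → Module.End ℂ V)
    (hcomm : ∀ i j, Commute (f i) (f j)) (χ : ι → Fin n → ℂ) (hχ : Function.Injective χ) (u : ι → V) (hu : ∀ p, u p ≠ 0)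
    (h : ∀ p i, f i (u p) = χ p i • u p) : Fintype.card ι ≤ finrank ℂ V := by
  have hind := Module.End.independent_iInf_maxGenEigenspace_of_forall_mapsTo f
    (fun i j φ => Module.End.mapsTo_maxGenEigenspace_of_comm (hcomm j i) φ)
  have hind2 := hind.comp hχ
  have hli := iSupIndep.linearIndependent _ hind2 (v := u) (fun p => by
    show u p ∈ ⨅ i, (f i).maxGenEigenspace (χ p i)
    rw [Submodule.mem_iInf]
    intro i
    rw [Module.End.mem_maxGenEigenspace]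
    refine ⟨1, ?_⟩
    rw [pow_one, LinearMap.sub_apply, h p i]
    exact sub_self _) hu
  exact hli.fintype_card_le_finrank

theorem le_finrank [FiniteDimensional ℂ V] (ρ : Representation ℂ E V) {z w : E} {x y : Fin 2 → E} (H : Heis 5 2 z x y)
    (hw : w * z * w⁻¹ = z ^ 2) (h1 : ρ z ≠ 1) : 100 ≤ finrank ℂ V := by
  obtain ⟨v, hv, μ, hμ1, hμ⟩ := exists_z ρ H.zr h1
  have hμ5 : μ ^ 5 = 1 := eig_pow ρ hv hμ H.zr
  have hμ0 : μ ≠ 0 := by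
    rintro rfl
    norm_num at hμ5
  -- all four eigenvalues occur
  have step : ∀ n : ℕ, ∃ v' : V, v' ≠ 0 ∧ ρ z v' = μ ^ (3 ^ n) • v' := by
    intro n
    induction n with
    | zero => exact ⟨v, hv, by rw [pow_zero, pow_one]; exact hμ⟩
    | succ n ih =>
      obtain ⟨v', hv', h'⟩ := ih
      obtain ⟨v'', hv'', h''⟩ := eig_cube ρ H.zr hw hv' h'
      exact ⟨v'', hv'', by rw [h'', ← pow_mul, pow_succ]⟩
  have all : ∀ c : Fin 4, ∃ v' : V, v' ≠ 0 ∧ ρ z v' = μ ^ ((c : ℕ) + 1) • v' := by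
    intro c
    fin_cases c
    · obtain ⟨v', hv', h'⟩ := step 0
      exact ⟨v', hv', h'⟩
    · obtain ⟨v', hv', h'⟩ := step 3
      refine ⟨v', hv', ?_⟩
      rw [h']
      congr 1
      calc μ ^ 3 ^ 3 = (μ ^ 5) ^ 5 * μ ^ 2 := by ring
        _ = μ ^ 2 := by rw [hμ5, one_pow, one_mul]
    · obtain ⟨v', hv', h'⟩ := step 1
      exact ⟨v', hv', h'⟩
    · obtain ⟨v', hv', h'⟩ := step 2
      refine ⟨v', hv', ?_⟩
      rw [h']
      congr 1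
      calc μ ^ 3 ^ 2 = μ ^ 5 * μ ^ 4 := by ring
        _ = μ ^ 4 := by rw [hμ5, one_mul]
  have all' : ∀ c : Fin 4, ∃ α β, JE ρ z (x 0) (x 1) (μ ^ ((c : ℕ) + 1)) α β := by
    intro c
    obtain ⟨v', hv', h'⟩ := all c
    exact exists_je ρ (H.zx 0) (H.zx 1) (H.xx 0 1) hv' h'
  choose α β hJ using all'
  have hν5 : ∀ c : Fin 4, (μ ^ ((c : ℕ) + 1)) ^ 5 = 1 := by
    intro c
    rw [← pow_mul, mul_comm, pow_mul, hμ5, one_pow]
  have hν0 : ∀ c : Fin 4, μ ^ ((c : ℕ) + 1) ≠ 0 := fun c => pow_ne_zero _ hμ0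
  have hν1 : ∀ c : Fin 4, μ ^ ((c : ℕ) + 1) ≠ 1 := by
    intro c h
    rw [← pow_zero μ] at h
    exact absurd (pow_inj5 hμ5 hμ1 (by omega) (by omega) h) (by omega)
  have hJ2 : ∀ (c : Fin 4) (i j : Fin 5), JE ρ z (x 0) (x 1) (μ ^ ((c : ℕ) + 1)) (α c * (μ ^ ((c : ℕ) + 1)) ^ (i : ℕ))
      (β c * (μ ^ ((c : ℕ) + 1)) ^ (j : ℕ)) := by
    intro c i j
    exact shift_all₂ (hν5 c) (shift_all₁ (hν5 c) (hJ c) (H.zy 0) (H.conj 0) (H.yx 0 1 (by decide)) (hν0 c) i) (H.zy 1)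
      (H.conj 1) (H.yx 1 0 (by decide)) (hν0 c) j
  have hα0 : ∀ c, α c ≠ 0 := by
    intro c h
    obtain ⟨v', hv', -, h', -⟩ := hJ c
    have := eig_pow ρ hv' h' (H.xr 0)
    rw [h] at this
    norm_num at this
  have hβ0 : ∀ c, β c ≠ 0 := by
    intro c h
    obtain ⟨v', hv', -, -, h'⟩ := hJ c
    have := eig_pow ρ hv' h' (H.xr 1)
    rw [h] at this
    norm_num at this
  -- independence
  let f : Fin 3 → Module.End ℂ V := ![ρ z, ρ (x 0), ρ (x 1)]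
  let χ : Fin 4 × Fin 5 × Fin 5 → (Fin 3 → ℂ) := fun p =>
    ![μ ^ ((p.1 : ℕ) + 1), α p.1 * (μ ^ ((p.1 : ℕ) + 1)) ^ (p.2.1 : ℕ), β p.1 * (μ ^ ((p.1 : ℕ) + 1)) ^ (p.2.2 : ℕ)]
  have hχ : Function.Injective χ := by
    rintro ⟨c, i, j⟩ ⟨c', i', j'⟩ h
    have e1 : μ ^ ((c : ℕ) + 1) = μ ^ ((c' : ℕ) + 1) := congrFun h 0
    have e2 : α c * (μ ^ ((c : ℕ) + 1)) ^ (i : ℕ) = α c' * (μ ^ ((c' : ℕ) + 1)) ^ (i' : ℕ) := congrFun h 1
    have e3 : β c * (μ ^ ((c : ℕ) + 1)) ^ (j : ℕ) = β c' * (μ ^ ((c' : ℕ) + 1)) ^ (j' : ℕ) := congrFun h 2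
    have hc : c = c' := by
      have := pow_inj5 hμ5 hμ1 (by omega) (by omega) e1
      exact Fin.ext (by omega)
    subst hc
    have hi := pow_inj5 (hν5 c) (hν1 c) i.2 i'.2 (mul_left_cancel₀ (hα0 c) e2)
    have hj := pow_inj5 (hν5 c) (hν1 c) j.2 j'.2 (mul_left_cancel₀ (hβ0 c) e3)
    rw [Fin.ext hi, Fin.ext hj]
  have hcomm : ∀ i j : Fin 3, Commute (f i) (f j) := by
    have hz0 : Commute (ρ z) (ρ (x 0)) := by
      show ρ z * ρ (x 0) = ρ (x 0) * ρ z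
      rw [← map_mul, ← map_mul, H.zx 0]
    have hz1 : Commute (ρ z) (ρ (x 1)) := by
      show ρ z * ρ (x 1) = ρ (x 1) * ρ z
      rw [← map_mul, ← map_mul, H.zx 1]
    have h01 : Commute (ρ (x 0)) (ρ (x 1)) := by
      show ρ (x 0) * ρ (x 1) = ρ (x 1) * ρ (x 0)
      rw [← map_mul, ← map_mul, H.xx 0 1]
    intro i j
    fin_cases i <;> fin_cases j
    · exact Commute.refl _
    · exact hz0
    · exact hz1
    · exact hz0.symm
    · exact Commute.refl _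
    · exact h01
    · exact hz1.symm
    · exact h01.symm
    · exact Commute.refl _
  choose u hu0 hu1 hu2 hu3 using fun p : Fin 4 × Fin 5 × Fin 5 => hJ2 p.1 p.2.1 p.2.2
  have h3 := card_le_finrank f hcomm χ hχ u hu0 (fun p i => by
    fin_cases i
    · exact hu1 p
    · exact hu2 p
    · exact hu3 p)
  rw [Fintype.card_prod, Fintype.card_prod, Fintype.card_fin, Fintype.card_fin] at h3
  exact h3

end Cfsg.Agent.H793.Cyc.HeisC
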