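import Cfsg.Agent.H79.MinIdxSp2.Concrete

/-!
# Transitive actions of `Sp_6(2)` on at most 30 points (task [PSp62] of helper384)

Such an action (of degree `> 1`) has degree 28 and is doubly transitive. (Same proof as `H79.MinIdxSp2`, with the bound
`2 |X| + 4 ≤ |V|`.)
-/

set_option autoImplicit false
set_option linter.unusedSectionVars false

namespace Cfsg.Agent.H793.Cyc

open Cfsg.Agent.H79.MinIdxSp2 Cfsg.Agent.H79.OrbitDual

variable {F V G : Type*} [Field F] [AddCommGroup V] [Module F V] [Group G]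
    [DistribMulAction G V] (S : Sp2 F V G) {X : Type*} [MulAction G X]

theorem type_of_univ [Finite V] [Finite X] (hX : 2 * Nat.card X + 4 ≤ Nat.card V) {e f : V}
    (hef : S.B e f = 1) {x : X}
    (h : ∀ v, v ∈ S.An e f (Quotient.mk _ x)) : S.TZ e x := by
  have h1 : ((S.D X e f).B (Quotient.mk _ x)).index = Nat.card (S.W0 e f) := by
    have h2 := (S.D X e f).card_A (S.kap e f) (S.card_kap hef) (Quotient.mk _ x)
    have h3 : Nat.card (S.An e f (Quotient.mk _ x)) = Nat.card (S.W0 e f) := by
      rw [show S.An e f (Quotient.mk _ x) = Set.univ from Set.eq_univ_of_forall h, Nat.card_univ]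
    rw [h3, one_mul] at h2
    exact h2.symm
  have h2 : (S.D X e f).B (Quotient.mk _ x) = ⊥ := by
    have h3 := ((S.D X e f).B (Quotient.mk (S.ySetoid X e) x)).card_mul_index
    rw [h1] at h3
    have h4 : Nat.card ((S.D X e f).B (Quotient.mk (S.ySetoid X e) x)) = 1 :=
      Nat.eq_of_mul_eq_mul_right (Nat.card_pos (α := S.W0 e f)) (by rw [h3, one_mul])
    exact AddSubgroup.card_eq_one.1 h4
  have h3 : ∀ w ∈ S.W0 e f, S.s e w • x = x ∨ S.s e w • x = S.t e • x → w = 0 := by
    intro w hw h4
    have h5 : (⟨w, hw⟩ : S.W0 e f) ∈ (S.D X e f).B (Quotient.mk _ x) := S.mem_B.2 h4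
    rw [h2] at h5
    exact congrArg Subtype.val (AddSubgroup.mem_bot.1 h5)
  have ht : S.t e • x = x := by
    by_contra ht
    -- too many points
    have hinj : Function.Injective (fun p : S.W0 e f × Bool =>
        if p.2 then S.t e • S.s e p.1.1 • x else S.s e p.1.1 • x) := by
      rintro ⟨w, b⟩ ⟨w', b'⟩ hp
      have hw : w = w' := by
        have h4 : (S.D X e f).T w • (Quotient.mk (S.ySetoid X e) x) =
            (S.D X e f).T w' • (Quotient.mk (S.ySetoid X e) x) := by
          rw [S.D_T, S.D_T, S.mk_eq]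
          cases b <;> cases b'
          · exact Or.inl hp.symm
          · right
            have hp' : S.s e w.1 • x = S.t e • S.s e w'.1 • x := hp
            rw [hp', S.t_t_smul]
          · right
            exact (show S.t e • S.s e w.1 • x = S.s e w'.1 • x from hp).symm
          · left
            exact ((smul_left_cancel_iff (S.t e)).1
              (show S.t e • S.s e w.1 • x = S.t e • S.s e w'.1 • x from hp)).symm
        have h5 : -w' + w ∈ (S.D X e f).B (Quotient.mk (S.ySetoid X e) x) := by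
          rw [Act.mem_B, Act.map_add, Act.map_neg, mul_smul, inv_smul_eq_iff]
          exact h4
        rw [h2, AddSubgroup.mem_bot, neg_add_eq_zero] at h5
        exact h5.symm
      subst hw
      have h6 : S.t e • S.s e w.1 • x ≠ S.s e w.1 • x := by
        rw [← S.s_comm_t_smul w.2.1]
        intro h
        exact ht ((smul_left_cancel_iff _).1 h)
      cases b <;> cases b'
      · rfl
      · exact absurd hp.symm h6
      · exact absurd hp h6
      · rfl
    have h4 := Nat.card_le_card_of_injective _ hinj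
    rw [Nat.card_prod, Nat.card_eq_fintype_card (α := Bool), Fintype.card_bool] at h4
    have h5 := S.card_W0 hef
    omega
  refine ⟨ht, fun w hw hwx => ?_⟩
  obtain ⟨w0, hw0, h4, h5⟩ := S.s_proj hef hw
  have h6 := h3 w0 hw0 (Or.inl (by rw [h4]; exact hwx))
  rcases h5 with h5 | h5
  · left; rw [← h5, h6]
  · right
    rw [h6] at h5
    exact (S.add_eq_zero.1 h5.symm).symm

/-- The trichotomy. -/
theorem tri [Finite V] [Finite X] (hX : 2 * Nat.card X + 4 ≤ Nat.card V) {e : V} (he : e ≠ 0)
    (hmv : ∃ x : X, S.t e • x ≠ x) (x : X) : S.TQ e x ∨ S.TH e x ∨ S.TZ e x := by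
  obtain ⟨f, hef⟩ := S.exists_hyp he
  have hcW := S.card_W0 hef
  have hYX := S.card_Y_le (X := X) e
  have hm : 1 ≤ Nat.card (S.D X e f).Orb := by
    have : Nonempty (S.D X e f).Orb := ⟨Quotient.mk _ (Quotient.mk _ x)⟩
    exact Nat.card_pos
  obtain ⟨c, hc⟩ : ∃ c, ∀ v : S.W0 e f, v ≠ 0 → S.kk X e f v = c := by
    by_cases h : ∃ v : S.W0 e f, v ≠ 0
    · obtain ⟨v, hv⟩ := h
      exact ⟨S.kk X e f v, fun w hw => S.kk_const hef hv hw⟩
    · push Not at h
      exact ⟨0, fun v hv => absurd (h v) hv⟩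
  have hcount : Nat.card (S.Y X e) + c = Nat.card (S.D X e f).Orb + c * Nat.card (S.W0 e f) := by
    have h1 := (S.D X e f).card_eq_of_const (S.kap e f) (S.card_kap hef) {v | v ≠ 0} hc
      (fun w hw a => by
        have : w = 0 := not_not.1 hw
        rw [this]
        exact S.zero_right a.1)
    have h4 := Set.ncard_add_ncard_compl {v : S.W0 e f | v ≠ 0}
    rw [← Nat.card_coe_set_eq, ← Nat.card_coe_set_eq] at h4
    have h2 : Nat.card (({v | v ≠ 0} : Set (S.W0 e f))ᶜ : Set (S.W0 e f)) = 1 := by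
      rw [Nat.card_eq_one_iff_unique]
      refine ⟨⟨fun a b => ?_⟩, ⟨⟨0, fun h => h rfl⟩⟩⟩
      have h3 : ∀ a : (({v | v ≠ 0} : Set (S.W0 e f))ᶜ : Set (S.W0 e f)), a.1 = 0 :=
        fun a => not_not.1 a.2
      exact Subtype.ext ((h3 a).trans (h3 b).symm)
    rw [h2] at h1 h4
    rw [← h4, mul_add]
    omega
  have hc2 : c < 2 := by
    by_contra hcon
    push Not at hcon
    obtain ⟨r, hr⟩ : ∃ r, Nat.card (S.W0 e f) = r + 1 :=
      ⟨Nat.card (S.W0 e f) - 1, by have := Nat.card_pos (α := S.W0 e f); omega⟩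
    rw [hr] at hcount hcW
    nlinarith
  interval_cases c
  · have h1 : ∀ v ∈ S.An e f (Quotient.mk (S.ySetoid X e) x), v = 0 := by
      intro v hv
      by_contra hv0
      exact (S.D X e f).notMem_A_of_k_eq_zero (S.kap e f) (hc v hv0) _ hv
    rcases S.type_of_trivial hef h1 with h | h
    · exact Or.inl h
    · exact Or.inr (Or.inl h)
  · -- some annihilator is everything
    have h1 : ∃ y : S.Y X e, ∀ v, v ∈ S.An e f y := by
      by_contra hcon
      push Not at hcon
      have h2 : ∀ y : S.Y X e, ((S.D X e f).B y).index ≤ 2 := by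
        intro y
        have h3 := (S.D X e f).card_A (S.kap e f) (S.card_kap hef) y
        rw [one_mul] at h3
        rw [← h3]
        by_contra hcon2
        push Not at hcon2
        -- two distinct nonzero elements
        obtain ⟨u, hu⟩ := hcon y
        apply hu
        have h4 : ∃ v ∈ S.An e f y, v ≠ 0 := by
          by_contra hcon3
          push Not at hcon3
          have h5 : Nat.card (S.An e f y) ≤ Nat.card (Fin 1) :=
            Nat.card_le_card_of_injective (fun _ => 0) (fun a b _ =>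
              Subtype.ext ((hcon3 a.1 a.2).trans (hcon3 b.1 b.2).symm))
          rw [Nat.card_eq_fintype_card (α := Fin 1), Fintype.card_fin] at h5
          change 2 < Nat.card (S.An e f y) at hcon2
          omega
        obtain ⟨v, hv, hv0⟩ := h4
        have h5 : ∃ w ∈ S.An e f y, w ≠ 0 ∧ v ≠ w := by
          by_contra hcon3
          push Not at hcon3
          classical
          have h5 : Nat.card (S.An e f y) ≤ Nat.card (Fin 2) := by
            refine Nat.card_le_card_of_injective
              (fun a => if a.1 = 0 then (0 : Fin 2) else 1) (fun a b hab => ?_)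
            by_cases ha : a.1 = 0 <;> by_cases hb : b.1 = 0
            · exact Subtype.ext (ha.trans hb.symm)
            · simp [ha, hb] at hab
            · simp [ha, hb] at hab
            · exact Subtype.ext ((hcon3 a.1 a.2 ha).symm.trans (hcon3 b.1 b.2 hb))
          rw [Nat.card_eq_fintype_card (α := Fin 2), Fintype.card_fin] at h5
          change 2 < Nat.card (S.An e f y) at hcon2
          omega
        obtain ⟨w, hw, hw0, hvw⟩ := h5
        exact S.An_univ hef hc hv hv0 hw hw0 hvw u
      have h3 : Nat.card (S.Y X e) ≤ Nat.card (S.D X e f).Orb * 2 := by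
        classical
        have := Fintype.ofFinite (S.D X e f).Orb
        rw [(S.D X e f).card_eq_sum_index, Nat.card_eq_fintype_card (α := (S.D X e f).Orb),
          ← smul_eq_mul, ← Finset.card_univ, ← Finset.sum_const]
        exact Finset.sum_le_sum fun O _ => h2 _
      -- `t e` acts trivially
      have h4 : Nat.card X ≤ Nat.card (S.Y X e) := by omega
      obtain ⟨x', hx'⟩ := hmv
      apply hx'
      have h5 : Function.Bijective (Quotient.mk (S.ySetoid X e)) := by
        rw [Nat.bijective_iff_surjective_and_card]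
        exact ⟨Quotient.mk_surjective, le_antisymm h4 hYX⟩
      apply h5.1
      rw [S.mk_eq, S.t_t_smul]
      exact Or.inr rfl
    obtain ⟨y, hy⟩ := h1
    by_cases h2 : ∃ v ∈ S.An e f (Quotient.mk (S.ySetoid X e) x), v ≠ 0
    · obtain ⟨v, hv, hv0⟩ := h2
      have h3 := (S.D X e f).A_eq_of_k_eq_one (S.kap e f) (hc v hv0) hv (hy v)
      refine Or.inr (Or.inr (type_of_univ S hX hef fun v => ?_))
      change v ∈ (S.D X e f).A (S.kap e f) _
      rw [h3]
      exact hy v
    · push Not at h2
      rcases S.type_of_trivial hef h2 with h | h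
      · exact Or.inl h
      · exact Or.inr (Or.inl h)

/-- the transvections of non-zero vectors are non-trivial -/
theorem t_ne_one {e : V} (he : e ≠ 0) : S.t e ≠ 1 := by
  intro h
  obtain ⟨f, hf⟩ := S.exists_hyp he
  have h1 := S.t_smul e f
  rw [h, one_smul, hf, one_smul] at h1
  exact he (left_eq_add.1 h1)

/-- The quadratic form of a point. -/
theorem Q_form [Finite V] [Finite X] [MulAction.IsPretransitive G X] (hX : 2 * Nat.card X + 4 ≤ Nat.card V)
    (hV17 : 17 ≤ Nat.card V) (hX1 : 1 < Nat.card X) (hfaith : ∀ g : G, (∀ x : X, g • x = x) → g = 1) (x : X) (u v : V) :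
    S.Q x (u + v) = S.Q x u + S.Q x v + S.B u v := by
  have hmv : ∀ e : V, e ≠ 0 → ∃ x : X, S.t e • x ≠ x := by
    intro e he
    by_contra hcon
    push Not at hcon
    exact t_ne_one S he (hfaith _ hcon)
  have hne : ∀ x : X, ∃ v, S.t v • x ≠ x := by
    intro x
    by_contra hcon2
    push Not at hcon2
    have h1 : MulAction.stabilizer G x = ⊤ := by
      rw [eq_top_iff, ← S.gen, Subgroup.closure_le]
      rintro g ⟨v, rfl⟩
      exact hcon2 v
    have : Nontrivial X := Finite.one_lt_card_iff_nontrivial.1 hX1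
    obtain ⟨y, hy⟩ := exists_ne x
    obtain ⟨g, hg⟩ := MulAction.exists_smul_eq G x y
    have h2 : g ∈ MulAction.stabilizer G x := by rw [h1]; trivial
    exact hy (by rw [← hg]; exact h2)
  have hz : ∃ e, e ≠ 0 ∧ S.TZ e x := by
    by_contra hcon2
    push Not at hcon2
    refine S.exists_TZ hV17 (x := x) (fun e he => ?_) (hne x)
    rcases tri S hX he (hmv e he) x with h | h | h
    · exact Or.inl h
    · exact Or.inr h
    · exact absurd h (hcon2 e he)
  have hT : ∀ e, e ≠ 0 → S.TH e x ∨ S.TZ e x := by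
    intro e he
    rcases tri S hX he (hmv e he) x with h | h
    · obtain ⟨e₀, he₀, h0⟩ := hz
      exact (S.not_TQ hV17 (hne x) he₀ h0 he h).elim
    · exact h
  exact S.Q_add hT hz u v

/-- the number of zeros of a form on `F_2^6` -/
theorem card_zeros [Finite V] (hV : Nat.card V = 64) {Q : V → F} (hQ : ∀ u v, Q (u + v) = Q u + Q v + S.B u v) :
    Nat.card {v // Q v = 0} = 28 ∨ Nat.card {v // Q v = 0} = 36 := by
  have := Fintype.ofFinite V
  have h1 := S.gauss hQ
  have h2 := Sp2.sum_sg Q
  rw [← Nat.card_eq_fintype_card, hV] at h1 h2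
  rw [h2] at h1
  have h3 : ((2 * (Nat.card {v // Q v = 0} : ℤ) - 64) - 8) * ((2 * (Nat.card {v // Q v = 0} : ℤ) - 64) + 8) = 0 := by
    linear_combination h1
  rcases mul_eq_zero.1 h3 with h4 | h4
  · right; omega
  · left; omega

/-- `O(Q)` is transitive on the non-zero singular vectors. -/
theorem exists_sing {Q : V → F} (hQ : ∀ u v, Q (u + v) = Q u + Q v + S.B u v) {u v : V} (hu : Q u = 0) (hv : Q v = 0)
    (hu0 : u ≠ 0) (hv0 : v ≠ 0) : ∃ g : G, (∀ w, Q (g • w) = Q w) ∧ g • u = v := by
  have step : ∀ u v : V, Q u = 0 → Q v = 0 → S.B u v = 1 → ∃ g : G, (∀ w, Q (g • w) = Q w) ∧ g • u = v := by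
    intro u v hu hv huv
    have hw : Q (u + v) = 1 := by rw [hQ, hu, hv, huv, add_zero, zero_add]
    refine ⟨S.t (u + v), fun w => S.form_t' hQ hw w, ?_⟩
    rw [S.t_smul, S.add_left, S.self, S.symm v u, huv, zero_add, one_smul, S.add_add_self]
  rcases S.two (S.B u v) with h | h
  · obtain ⟨z, hz1, hz2⟩ := S.exists_both hu0 hv0
    obtain ⟨z, hz1, hz2, hz3⟩ : ∃ z, S.B u z = 1 ∧ S.B v z = 1 ∧ Q z = 0 := by
      rcases S.two (Q z) with hz | hz
      · exact ⟨z, hz1, hz2, hz⟩
      · refine ⟨z + u, ?_, ?_, ?_⟩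
        · rw [S.add_right, hz1, S.self, add_zero]
        · rw [S.add_right, hz2, S.symm v u, h, add_zero]
        · rw [hQ, hz, hu, S.symm z u, hz1, add_zero, S.one_add_one]
    obtain ⟨g, hg1, hg2⟩ := step u z hu hz3 hz1
    obtain ⟨k, hk1, hk2⟩ := step z v hz3 hv (by rw [S.symm, hz2])
    exact ⟨k * g, fun w => by rw [mul_smul, hk1, hg1], by rw [mul_smul, hg2, hk2]⟩
  · exact step u v hu hv h

include S in
/-- **Transitive actions of `Sp_6(2)` of degree at most 30 are doubly transitive** (of degree 28). -/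
theorem two_trans [Finite V] [Finite X] [MulAction.IsPretransitive G X] (hV : Nat.card V = 64) (hX : Nat.card X ≤ 30)
    (hX1 : 1 < Nat.card X) (hfaith : ∀ g : G, (∀ x : X, g • x = x) → g = 1) {x y y' : X} (hy : y ≠ x) (hy' : y' ≠ x) :
    ∃ g : G, g • x = x ∧ g • y = y' := by
  have hXV : 2 * Nat.card X + 4 ≤ Nat.card V := by omega
  have hQ : ∀ x : X, ∀ u v : V, S.Q x (u + v) = S.Q x u + S.Q x v + S.B u v :=
    fun x => Q_form S hXV (by omega) hX1 hfaith x
  -- the stabilizers
  have hstab : ∀ x : X, MulAction.stabilizer G x = MulAction.stabilizer G (Sp2.Fn.mk (S.Q x)) := by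
    intro x
    have hle : MulAction.stabilizer G x ≤ MulAction.stabilizer G (Sp2.Fn.mk (S.Q x)) := by
      intro g hg
      have hg : g • x = x := hg
      show g • (Sp2.Fn.mk (S.Q x)) = Sp2.Fn.mk (S.Q x)
      rw [Sp2.Fn.smul_def']
      congr 1
      funext v
      have h1 := S.Q_smul x g (g⁻¹ • v)
      rw [hg, smul_inv_smul] at h1
      exact h1.symm
    have h1 : (MulAction.stabilizer G x).index = Nat.card X := MulAction.index_stabilizer_of_transitive G x
    have h2 := S.index_form (hQ x)
    have h3 := Subgroup.relIndex_mul_index hle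
    have hXpos : Nat.card X ≠ 0 := by omega
    have h4 : (MulAction.stabilizer G x).relIndex (MulAction.stabilizer G (Sp2.Fn.mk (S.Q x))) = 1 := by
      rcases card_zeros S hV (hQ x) with h5 | h5
      · rw [h2, h5, h1] at h3
        generalize (MulAction.stabilizer G x).relIndex (MulAction.stabilizer G (Sp2.Fn.mk (S.Q x))) = r at h3
        have : r < 2 := by omega
        interval_cases r
        · omega
        · rfl
      · rw [h2, h5, h1] at h3
        generalize (MulAction.stabilizer G x).relIndex (MulAction.stabilizer G (Sp2.Fn.mk (S.Q x))) = r at h3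
        have : r < 1 := by omega
        interval_cases r
        omega
    exact le_antisymm hle (Subgroup.relIndex_eq_one.1 h4)
  have hact : ∀ (g : G) (x : X), Sp2.Fn.mk (S.Q (g • x)) = g • Sp2.Fn.mk (S.Q x) := by
    intro g x
    rw [Sp2.Fn.smul_def']
    congr 1
    funext v
    have h1 := S.Q_smul x g (g⁻¹ • v)
    rw [smul_inv_smul] at h1
    exact h1
  have hinj : ∀ x y : X, Sp2.Fn.mk (S.Q x) = Sp2.Fn.mk (S.Q y) → x = y := by
    intro x y h
    obtain ⟨g, rfl⟩ := MulAction.exists_smul_eq G x y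
    rw [hact] at h
    have h1 : g ∈ MulAction.stabilizer G (Sp2.Fn.mk (S.Q x)) := h.symm
    rw [← hstab x] at h1
    exact (show g • x = x from h1).symm
  have hform : ∀ y : X, y ≠ x → ∃ v : V, v ≠ 0 ∧ S.Q x v = 0 ∧ Sp2.Fn.mk (S.Q y) = S.shift (S.Q x) v := by
    intro y hy
    have h1 : Sp2.Fn.mk (S.Q y) ∈ MulAction.orbit G (Sp2.Fn.mk (S.Q x)) := by
      obtain ⟨g, rfl⟩ := MulAction.exists_smul_eq G x y
      exact ⟨g, (hact g x).symm⟩
    rw [S.orbit_eq (hQ x)] at h1
    obtain ⟨⟨v, hv⟩, hv2⟩ := h1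
    refine ⟨v, ?_, hv, hv2.symm⟩
    rintro rfl
    apply hy
    apply hinj
    rw [← hv2]
    show S.shift (S.Q x) 0 = _
    rw [Sp2.shift]
    congr 1
    funext u
    rw [S.zero_left, add_zero]
  obtain ⟨v, hv0, hv, hvy⟩ := hform y hy
  obtain ⟨v', hv0', hv', hvy'⟩ := hform y' hy'
  obtain ⟨g, hg1, hg2⟩ := exists_sing S (hQ x) hv hv' hv0 hv0'
  have hgx : g • x = x := by
    apply hinj
    rw [hact, Sp2.Fn.smul_def']
    congr 1
    funext u
    show S.Q x (g⁻¹ • u) = S.Q x u
    rw [← hg1 (g⁻¹ • u), smul_inv_smul]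
  refine ⟨g, hgx, ?_⟩
  apply hinj
  rw [hact, hvy, hvy', Sp2.Fn.smul_def', Sp2.shift, Sp2.shift]
  congr 1
  funext u
  show S.Q x (g⁻¹ • u) + S.B v (g⁻¹ • u) = S.Q x u + S.B v' u
  rw [← hg1 (g⁻¹ • u), smul_inv_smul, ← S.inv g v, hg2, smul_inv_smul]

end Cfsg.Agent.H793.Cyc
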